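import Mathlib

/-!
# Packed 26 × 26 matrices over the field with 8 elements
Bit `78 i + 26 k + j` of a natural number `M`: the coefficient of `θ ^ k` of the entry `(i, j)`, `θ ^ 3 = θ + 1`.
-/

set_option autoImplicit false
set_option linter.unusedSectionVars false

namespace Cfsg.Agent.H857.Ree8.Code

variable {K : Type*} [Field K]

/-- a bit as an element of the field -/
def bk (K : Type*) [Field K] (b : Bool) : K := cond b 1 0

theorem bk_xor [CharP K 2] (a b : Bool) : bk K (a ^^ b) = bk K a + bk K b := by
  cases a <;> cases b <;> simp [bk, CharTwo.add_self_eq_zero]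

/-- the element of `K` with code `n` -/
def gf (θ : K) (n : ℕ) : K := bk K (n.testBit 0) + bk K (n.testBit 1) * θ + bk K (n.testBit 2) * θ ^ 2

/-- the entry at position `p` -/
def co (θ : K) (M p : ℕ) : K := bk K (M.testBit p) + bk K (M.testBit (p + 26)) * θ + bk K (M.testBit (p + 52)) * θ ^ 2

/-- the matrix -/
def sem (θ : K) (M : ℕ) : Matrix (Fin 26) (Fin 26) K := Matrix.of fun i j => co θ M (78 * i.val + j.val)

theorem sem_apply (θ : K) (M : ℕ) (i j : Fin 26) : sem θ M i j = co θ M (78 * i.val + j.val) := rfl

theorem co_zero (θ : K) (p : ℕ) : co θ 0 p = 0 := by simp [co, bk]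

theorem sem_zero (θ : K) : sem θ 0 = 0 := by
  ext i j
  rw [sem_apply, co_zero, Matrix.zero_apply]

theorem co_xor [CharP K 2] (θ : K) (M N p : ℕ) : co θ (M ^^^ N) p = co θ M p + co θ N p := by
  unfold co
  simp only [Nat.testBit_xor, bk_xor]
  ring

theorem sem_xor [CharP K 2] (θ : K) (M N : ℕ) : sem θ (M ^^^ N) = sem θ M + sem θ N := by
  ext i j
  rw [Matrix.add_apply, sem_apply, sem_apply, sem_apply, co_xor]

/-- plane masks -/
def m2 : ℕ := 30819898214101877717548655334362933820348322521987963637681909519882540036817827258736193183656635753486286340195407762111816839157022426206153546622976513448471203470414782703266924524317100828145983333595474255405127381268552883480659175933531725524581092476013759160160291158886761252794888410866520845197461205429144465628798695010878743285929504514052629455136206300227830095309247494027321180981985602216091804461178135362042922093993558013703732538557009357341800237134898720559374102043193945516494898114301952206190773493682018524882533733248223171918873490759074740315250522912147256714548051055738880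
/-- plane masks -/
def m01 : ℕ := 459252278109701707718644146220053234131717141220840835066608715855809784753361357600953076335755426192727239732675513367857529614938301554758752882532965409009082169441117648220424007214376502054572925143662553186132016799748632829928204734656256201007754994886172617368049832574078464020548970626590863468595121150235654596678578739523953781042098114084748175622809723875703306974270883806414423543831446574939515622036179382395429856125475208819278080546706285628563744210163012355139624775748991382880739606951224613915864832288234994387164066767526242681490938234085573526660751749359933773448216575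

theorem mask_bit : ∀ i < 27, ∀ j < 26, (m2.testBit (78 * i + j) = false ∧ m2.testBit (78 * i + 26 + j) = false ∧
    m2.testBit (78 * i + 52 + j) = decide (i < 26)) ∧ (m01.testBit (78 * i + j) = decide (i < 26) ∧
    m01.testBit (78 * i + 26 + j) = decide (i < 26) ∧ m01.testBit (78 * i + 52 + j) = false) := by
  decide +kernel

/-- multiplication by `θ` -/
def th (M : ℕ) : ℕ :=
  match M with
  | 0 => 0
  | M => Nat.xor (Nat.xor (Nat.shiftRight (Nat.land M m2) 52) (Nat.shiftRight (Nat.land M m2) 26))
    (Nat.shiftLeft (Nat.land M m01) 26)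

theorem th_eq (M : ℕ) : th M = ((((M &&& m2) >>> 52) ^^^ ((M &&& m2) >>> 26)) ^^^ ((M &&& m01) <<< 26)) := by
  cases M with
  | zero => simp [th]
  | succ M => rfl

theorem th_bit (M p : ℕ) : (th M).testBit p = (((M.testBit (52 + p) && m2.testBit (52 + p)) ^^
    (M.testBit (26 + p) && m2.testBit (26 + p))) ^^ (decide (p ≥ 26) && (M.testBit (p - 26) && m01.testBit (p - 26)))) := by
  rw [th_eq, Nat.testBit_xor, Nat.testBit_xor, Nat.testBit_shiftRight, Nat.testBit_shiftRight, Nat.testBit_shiftLeft,
    Nat.testBit_and, Nat.testBit_and, Nat.testBit_and]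

theorem co_th [CharP K 2] {θ : K} (hθ : θ ^ 3 = θ + 1) (M i j : ℕ) (hi : i < 26) (hj : j < 26) :
    co θ (th M) (78 * i + j) = θ * co θ M (78 * i + j) := by
  have h0 : (th M).testBit (78 * i + j) = M.testBit (78 * i + j + 52) := by
    rw [th_bit]
    obtain ⟨⟨a1, a2, a3⟩, b1, b2, b3⟩ := mask_bit i (by omega) j hj
    have e1 : 52 + (78 * i + j) = 78 * i + 52 + j := by ring
    have e2 : 26 + (78 * i + j) = 78 * i + 26 + j := by ring
    rw [e1, e2, a3, a2, show 78 * i + j + 52 = 78 * i + 52 + j by ring]
    have e3 : (decide (78 * i + j ≥ 26) && (M.testBit (78 * i + j - 26) && m01.testBit (78 * i + j - 26))) = false := by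
      rcases Nat.eq_zero_or_pos i with h | h
      · subst h
        have : ¬ (78 * 0 + j ≥ 26) := by omega
        rw [decide_eq_false this, Bool.false_and]
      · obtain ⟨i', rfl⟩ : ∃ i', i = i' + 1 := ⟨i - 1, by omega⟩
        have e : 78 * (i' + 1) + j - 26 = 78 * i' + 52 + j := by omega
        rw [e, (mask_bit i' (by omega) j hj).2.2.2]
        simp
    rw [e3]
    simp [hi]
  have h1 : (th M).testBit (78 * i + j + 26) = (M.testBit (78 * i + j + 52) ^^ M.testBit (78 * i + j)) := by
    rw [th_bit]
    obtain ⟨⟨a1, a2, a3⟩, b1, b2, b3⟩ := mask_bit i (by omega) j hj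
    have e1 : 52 + (78 * i + j + 26) = 78 * (i + 1) + j := by ring
    have e2 : 26 + (78 * i + j + 26) = 78 * i + 52 + j := by ring
    have e3 : 78 * i + j + 26 - 26 = 78 * i + j := by omega
    have e4 : 78 * i + j + 26 ≥ 26 := by omega
    rw [e1, e2, e3, a3, b1, (mask_bit (i + 1) (by omega) j hj).1.1, show 78 * i + j + 52 = 78 * i + 52 + j by ring]
    simp [hi]
  have h2 : (th M).testBit (78 * i + j + 52) = M.testBit (78 * i + j + 26) := by
    rw [th_bit]
    obtain ⟨⟨a1, a2, a3⟩, b1, b2, b3⟩ := mask_bit i (by omega) j hj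
    have e1 : 52 + (78 * i + j + 52) = 78 * (i + 1) + 26 + j := by ring
    have e2 : 26 + (78 * i + j + 52) = 78 * (i + 1) + j := by ring
    have e3 : 78 * i + j + 52 - 26 = 78 * i + 26 + j := by omega
    obtain ⟨⟨c1, c2, c3⟩, -⟩ := mask_bit (i + 1) (by omega) j hj
    rw [e1, e2, e3, b2, c1, c2, show 78 * i + j + 26 = 78 * i + 26 + j by ring]
    simp [hi]
  unfold co
  rw [h0, h1, h2, bk_xor]
  linear_combination (-bk K (M.testBit (78 * i + j + 52))) * hθ

theorem sem_th [CharP K 2] {θ : K} (hθ : θ ^ 3 = θ + 1) (M : ℕ) : sem θ (th M) = θ • sem θ M := by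
  ext i j
  rw [Matrix.smul_apply, sem_apply, sem_apply, co_th hθ M _ _ i.2 j.2, smul_eq_mul]

/-- multiplication by the element with code `n` -/
def sm (n M : ℕ) : ℕ :=
  match M with
  | 0 => 0
  | M => Nat.xor (cond (Nat.testBit n 0) M 0)
    (Nat.xor (cond (Nat.testBit n 1) (th M) 0) (cond (Nat.testBit n 2) (th (th M)) 0))

theorem sm_eq (n M : ℕ) : sm n M = (cond (Nat.testBit n 0) M 0) ^^^ ((cond (Nat.testBit n 1) (th M) 0) ^^^
    (cond (Nat.testBit n 2) (th (th M)) 0)) := by
  cases M with
  | zero => cases n.testBit 0 <;> cases n.testBit 1 <;> cases n.testBit 2 <;> simp [sm, th]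
  | succ M => rfl

theorem sem_sm [CharP K 2] {θ : K} (hθ : θ ^ 3 = θ + 1) (n M : ℕ) : sem θ (sm n M) = gf θ n • sem θ M := by
  rw [sm_eq, sem_xor, sem_xor]
  unfold gf
  cases n.testBit 0 <;> cases n.testBit 1 <;> cases n.testBit 2 <;>
    simp [bk, sem_zero, sem_th hθ, add_smul, smul_smul, pow_two, add_assoc]

/-- row `s` moved to row `u` -/
def mv (M u s : ℕ) : ℕ := Nat.shiftLeft (Nat.mod (Nat.shiftRight M (Nat.mul 78 s)) 302231454903657293676544) (Nat.mul 78 u)

theorem mv_bit (M u s i j : ℕ) (hj : j < 78) :
    (mv M u s).testBit (78 * i + j) = (decide (i = u) && M.testBit (78 * s + j)) := by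
  show (((M >>> (78 * s)) % 302231454903657293676544) <<< (78 * u)).testBit (78 * i + j) = _
  rw [show (302231454903657293676544 : ℕ) = 2 ^ 78 by norm_num, Nat.testBit_shiftLeft, Nat.testBit_mod_two_pow,
    Nat.testBit_shiftRight]
  by_cases h : i = u
  · subst h
    have h1 : 78 * i + j ≥ 78 * i := by omega
    have h2 : 78 * i + j - 78 * i = j := by omega
    simp [h1, h2, hj]
  · rcases lt_or_gt_of_ne h with h' | h'
    · have h1 : ¬ (78 * i + j ≥ 78 * u) := by omega
      simp [h, h1]
    · have h1 : ¬ (78 * i + j - 78 * u < 78) := by omega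
      simp [h, h1]

theorem co_mv (θ : K) (M u s i j : ℕ) (hj : j < 26) :
    co θ (mv M u s) (78 * i + j) = if i = u then co θ M (78 * s + j) else 0 := by
  unfold co
  rw [mv_bit M u s i j (by omega), show 78 * i + j + 26 = 78 * i + (j + 26) by ring,
    show 78 * i + j + 52 = 78 * i + (j + 52) by ring, mv_bit M u s i (j + 26) (by omega),
    mv_bit M u s i (j + 52) (by omega), show 78 * s + (j + 26) = 78 * s + j + 26 by ring,
    show 78 * s + (j + 52) = 78 * s + j + 52 by ring]
  by_cases h : i = u <;> simp [h, bk]

/-- the product of a sparse 0-1 matrix and a packed matrix -/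
def lmul (l : List (ℕ × ℕ)) (M : ℕ) : ℕ := l.foldr (fun e acc => Nat.xor acc (mv M e.1 e.2)) 0

/-- the matrix of a list of positions -/
def sp (K : Type*) [Field K] (l : List (ℕ × ℕ)) : Matrix (Fin 26) (Fin 26) K :=
  Matrix.of fun i j => (l.count (i.val, j.val) : K)

theorem sem_mv (θ : K) (M u s : ℕ) (hs : s < 26) : sem θ (mv M u s) = sp K [(u, s)] * sem θ M := by
  ext i j
  rw [sem_apply, co_mv θ M u s _ _ j.2, Matrix.mul_apply, Finset.sum_eq_single ⟨s, hs⟩]
  · simp only [sp, Matrix.of_apply, sem_apply, List.count_singleton]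
    by_cases h : i.val = u
    · simp [h]
    · have : ¬ (u = i.val) := fun e => h e.symm
      simp [h, this]
  · intro b _ hb
    have : ¬ (s = b.val) := fun e => hb (Fin.ext e.symm)
    simp [sp, Matrix.of_apply, List.count_singleton, this]
  · intro h
    exact absurd (Finset.mem_univ _) h

theorem sp_cons (e : ℕ × ℕ) (l : List (ℕ × ℕ)) : sp K (e :: l) = sp K [e] + sp K l := by
  ext i j
  simp only [sp, Matrix.of_apply, Matrix.add_apply]
  rw [show e :: l = [e] ++ l from rfl, List.count_append]
  push_cast
  rfl

theorem sem_lmul [CharP K 2] (θ : K) (l : List (ℕ × ℕ)) (hl : ∀ e ∈ l, e.2 < 26) (M : ℕ) :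
    sem θ (lmul l M) = sp K l * sem θ M := by
  induction l with
  | nil =>
    show sem θ 0 = _
    rw [sem_zero]
    ext i j
    simp [sp, Matrix.mul_apply]
  | cons e l ih =>
    show sem θ ((lmul l M) ^^^ (mv M e.1 e.2)) = _
    rw [sem_xor, ih (fun x hx => hl x (List.mem_cons_of_mem _ hx)), sem_mv θ M e.1 e.2 (hl e (List.mem_cons_self ..)),
      sp_cons e l, Matrix.add_mul, add_comm]

end Cfsg.Agent.H857.Ree8.Code
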