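import Mathlib

/-!
# `PGL₂(13)` in `²F₄(8)` (S5936): the relations
`Rel x s w`: generators of `PGL₂(13)`: `x : z ↦ z + 1`, `s : z ↦ 2 z`, `w : z ↦ -1 / z`.
-/

set_option autoImplicit false

namespace Cfsg.Agent.H857.Ree8

/-- the standard relations of `PGL₂(13)` -/
structure Rel {G : Type*} [Group G] (x s w : G) : Prop where
  x13 : x ^ 13 = 1
  x1 : x ≠ 1
  s12 : s ^ 12 = 1
  sx : s * x * s⁻¹ = x ^ 2
  w2 : w * w = 1
  ws : w * s * w⁻¹ = s⁻¹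
  xw : (x * w) ^ 3 = 1

end Cfsg.Agent.H857.Ree8
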