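import Cfsg.Agent.H857.Ree8.Data

/-!
# Kernel enumerations over the candidates for `C(s)`
-/

set_option autoImplicit false
set_option maxRecDepth 20000

namespace Cfsg.Agent.H857.Ree8.Enum

open Cfsg.Agent.H857.Ree8.Root Cfsg.Agent.H857.Ree8.Code Cfsg.Agent.H857.Ree8.Word Cfsg.Agent.H857.Ree8.Data
open Cfsg.Agent.H857.Ree8.Word.Tok

/-- `a ^ 2 + a + 1` -/
def qa (a : ℕ) : ℕ := Nat.xor (xS.sq a) (Nat.xor a 1)

/-- the elements of `LO` commuting with `d`: `8` for the identity -/
def lW (a : ℕ) : List Tok := cond (Nat.beq a 8) [] [o 0 a, o 4 (gi (qa a)), o 0 (Nat.xor a 1)]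

/-- the test that an element commutes with `s` -/
def tS (u t a : ℕ) : Bool :=
  !(beqM (ev (gEW u t 0 ++ lW a ++ sW) idM) (ev (sW ++ gEW u t 0 ++ lW a) idM)) ||
    (Nat.beq t (sg u) && (Nat.beq a 8 || (Nat.beq a 0 || Nat.beq a 1)))

theorem tS_0 : ((List.range 8).all fun t => (List.range 9).all fun a => tS 0 t a) = true := by decide +kernel

theorem tS_1 : ((List.range 8).all fun t => (List.range 9).all fun a => tS 1 t a) = true := by decide +kernel

theorem tS_2 : ((List.range 8).all fun t => (List.range 9).all fun a => tS 2 t a) = true := by decide +kernel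

theorem tS_3 : ((List.range 8).all fun t => (List.range 9).all fun a => tS 3 t a) = true := by decide +kernel

theorem tS_4 : ((List.range 8).all fun t => (List.range 9).all fun a => tS 4 t a) = true := by decide +kernel

theorem tS_5 : ((List.range 8).all fun t => (List.range 9).all fun a => tS 5 t a) = true := by decide +kernel

theorem tS_6 : ((List.range 8).all fun t => (List.range 9).all fun a => tS 6 t a) = true := by decide +kernel

theorem tS_7 : ((List.range 8).all fun t => (List.range 9).all fun a => tS 7 t a) = true := by decide +kernel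

theorem tS_all : ((List.range 8).all fun u => (List.range 8).all fun t => (List.range 9).all fun a => tS u t a) = true := by
  rw [List.all_eq_true]
  intro u hu
  have hu' := List.mem_range.1 hu
  interval_cases u
  · exact tS_0
  · exact tS_1
  · exact tS_2
  · exact tS_3
  · exact tS_4
  · exact tS_5
  · exact tS_6
  · exact tS_7

/-- `o 2 s` can be split off -/
theorem split_all : ((List.range 8).all fun u => (List.range 8).all fun t => (List.range 8).all fun s =>
    chk (gEW u t s) ([o 2 s] ++ gEW u t 0)) = true := by
  decide +kernel

theorem o2_s : ((List.range 8).all fun s => chk ([o 2 s] ++ sW) (sW ++ [o 2 s])) = true := by decide +kernel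

/-- the candidates for `C(s)` -/
def cW (u r k : ℕ) : List Tok := gEW u (sg u) r ++ lW (cond (Nat.beq k 0) 8 (Nat.pred k))

/-- the test for involutions -/
def tN (u r k : ℕ) : Bool :=
  Nat.beq (ev (cW u r k) idM) idM || (!(beqM (ev (cW u r k ++ cW u r k) idM) idM) ||
    !(beqM (ev (cW u r k ++ (xW ++ cW u r k ++ inv xW)) idM) (ev ((xW ++ cW u r k ++ inv xW) ++ cW u r k) idM)))

theorem tN_all : ((List.range 8).all fun u => (List.range 8).all fun r => (List.range 3).all fun k => tN u r k) = true := by
  decide +kernel

/-- the test for the elements inverting `s` -/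
def tW (u r k : ℕ) : Bool :=
  !(beqM (ev (pw (xW ++ (wW 0 ++ cW u r k)) 3) idM) idM) ||
    (Nat.beq (ev (wW 0 ++ cW u r k) idM) (ev (wW 0) idM) || (Nat.beq (ev (wW 0 ++ cW u r k) idM) (ev (wW 1) idM) ||
      Nat.beq (ev (wW 0 ++ cW u r k) idM) (ev (wW 2) idM)))

theorem tW_0 : ((List.range 8).all fun r => (List.range 3).all fun k => tW 0 r k) = true := by decide +kernel

theorem tW_1 : ((List.range 8).all fun r => (List.range 3).all fun k => tW 1 r k) = true := by decide +kernel

theorem tW_2 : ((List.range 8).all fun r => (List.range 3).all fun k => tW 2 r k) = true := by decide +kernel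

theorem tW_3 : ((List.range 8).all fun r => (List.range 3).all fun k => tW 3 r k) = true := by decide +kernel

theorem tW_4 : ((List.range 8).all fun r => (List.range 3).all fun k => tW 4 r k) = true := by decide +kernel

theorem tW_5 : ((List.range 8).all fun r => (List.range 3).all fun k => tW 5 r k) = true := by decide +kernel

theorem tW_6 : ((List.range 8).all fun r => (List.range 3).all fun k => tW 6 r k) = true := by decide +kernel

theorem tW_7 : ((List.range 8).all fun r => (List.range 3).all fun k => tW 7 r k) = true := by decide +kernel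

theorem tW_all : ((List.range 8).all fun u => (List.range 8).all fun r => (List.range 3).all fun k => tW u r k) = true := by
  rw [List.all_eq_true]
  intro u hu
  have hu' := List.mem_range.1 hu
  interval_cases u
  · exact tW_0
  · exact tW_1
  · exact tW_2
  · exact tW_3
  · exact tW_4
  · exact tW_5
  · exact tW_6
  · exact tW_7

end Cfsg.Agent.H857.Ree8.Enum
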