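import Cfsg.Agent.H857.Ree8.Code
import Cfsg.Agent.H977.TwF4Two
import Cfsg.Agent.KFacts.TwF4.Full

/-!
# The root elements of `²F₄(8)` as packed 26 × 26 matrices
-/

set_option autoImplicit false
set_option linter.unusedSectionVars false
set_option maxRecDepth 20000

namespace Cfsg.Agent.H857.Ree8.Root

open Cfsg.Lie Cfsg.Agent.ChevalleyStructure.TwF4.Tables
open Cfsg.Agent.ChevalleyStructure.TwF4.Bits hiding lmul sem sem_zero sem_xor sem_lmul sem_apply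
open Cfsg.Agent.ChevalleyStructure.TwF4.Rel hiding sp
open Cfsg.Agent.ChevalleyStructure.TwF4.Fix
open Cfsg.Agent.ChevalleyStructure.TwF4.TwistedFix
open Cfsg.Agent.Octagon.KRel
open Cfsg.Agent.KFacts.TwF4.Inst (oA oB eA eB eC eD)
open Cfsg.Agent.H857.Ree8.Code

def oE0 : List (ℕ × ℕ) := [(1, 0), (9, 5), (10, 6), (11, 7), (12, 8), (17, 13), (18, 14), (19, 15), (20, 16), (25,
  24)]
def oF0 : List (ℕ × ℕ) := [(17, 8)]
def oG0 : List (ℕ × ℕ) := [(4, 3), (6, 5), (10, 9), (16, 15), (20, 19), (22, 21)]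
def eE0 : List (ℕ × ℕ) := [(1, 2), (3, 5), (4, 6), (7, 8), (11, 12), (13, 14), (17, 18), (19, 21), (20, 22), (23, 24)]
def eF0 : List (ℕ × ℕ) := [(11, 14)]
def eG0 : List (ℕ × ℕ) := [(2, 3), (6, 7), (10, 11), (14, 15), (18, 19), (22, 23)]
def eH0 : List (ℕ × ℕ) := [(1, 3), (2, 5), (4, 7), (6, 8), (10, 12), (13, 15), (17, 19), (18, 21), (20, 23), (22, 24)]
def eI0 : List (ℕ × ℕ) := [(10, 15)]
def eJ0 : List (ℕ × ℕ) := [(1, 5), (4, 8), (10, 14), (11, 15), (17, 21), (20, 24)]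
def oE1 : List (ℕ × ℕ) := [(6, 0), (10, 1), (12, 3), (14, 5), (16, 7), (18, 9), (20, 11), (22, 13), (24, 15), (25,
  19)]
def oF1 : List (ℕ × ℕ) := [(22, 3)]
def oG1 : List (ℕ × ℕ) := [(11, 0), (17, 2), (19, 5), (20, 6), (23, 8), (25, 14)]
def eE1 : List (ℕ × ℕ) := [(2, 0), (9, 3), (10, 4), (12, 7), (13, 7), (14, 8), (17, 11), (18, 12), (18, 13), (21, 15),
  (22, 16), (25, 23)]
def eF1 : List (ℕ × ℕ) := [(18, 7)]
def eG1 : List (ℕ × ℕ) := [(4, 2), (7, 5), (11, 9), (16, 14), (20, 18), (23, 21)]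
def eH1 : List (ℕ × ℕ) := [(4, 0), (10, 2), (11, 3), (12, 5), (13, 5), (16, 8), (17, 9), (20, 12), (20, 13), (22, 14),
  (23, 15), (25, 21)]
def eI1 : List (ℕ × ℕ) := [(20, 5)]
def eJ1 : List (ℕ × ℕ) := [(10, 0), (17, 3), (18, 5), (20, 7), (22, 8), (25, 15)]
def oE2 : List (ℕ × ℕ) := [(7, 0), (11, 1), (12, 2), (15, 5), (16, 6), (19, 9), (20, 10), (23, 13), (24, 14), (25,
  18)]
def oF2 : List (ℕ × ℕ) := [(23, 2)]
def oG2 : List (ℕ × ℕ) := [(14, 0), (18, 1), (21, 3), (22, 4), (24, 7), (25, 11)]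
def eE2 : List (ℕ × ℕ) := [(4, 1), (6, 2), (7, 3), (8, 5), (13, 9), (16, 12), (20, 17), (22, 18), (23, 19), (24, 21)]
def eF2 : List (ℕ × ℕ) := [(16, 9)]
def eG2 : List (ℕ × ℕ) := [(9, 0), (17, 4), (18, 6), (19, 7), (21, 8), (25, 16)]
def eH2 : List (ℕ × ℕ) := [(13, 0), (17, 1), (18, 2), (19, 3), (20, 4), (21, 5), (22, 6), (23, 7), (24, 8), (25, 12)]
def eI2 : List (ℕ × ℕ) := [(25, 0)]
def eJ2 : List (ℕ × ℕ) := [(16, 0), (20, 1), (22, 2), (23, 3), (24, 5), (25, 9)]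
def oE3 : List (ℕ × ℕ) := [(5, 0), (9, 1), (12, 4), (14, 6), (15, 7), (18, 10), (19, 11), (21, 13), (24, 16), (25,
  20)]
def oF3 : List (ℕ × ℕ) := [(21, 4)]
def oG3 : List (ℕ × ℕ) := [(7, 1), (8, 2), (15, 9), (16, 10), (23, 17), (24, 18)]
def eE3 : List (ℕ × ℕ) := [(3, 0), (9, 2), (11, 4), (12, 6), (13, 6), (15, 8), (17, 10), (19, 12), (19, 13), (21, 14),
  (23, 16), (25, 22)]
def eF3 : List (ℕ × ℕ) := [(19, 6)]
def eG3 : List (ℕ × ℕ) := [(6, 1), (8, 3), (14, 9), (16, 11), (22, 17), (24, 19)]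
def eH3 : List (ℕ × ℕ) := [(8, 0), (12, 1), (13, 1), (14, 2), (15, 3), (16, 4), (21, 9), (22, 10), (23, 11), (24, 12),
  (24, 13), (25, 17)]
def eI3 : List (ℕ × ℕ) := [(24, 1)]
def eJ3 : List (ℕ × ℕ) := [(15, 0), (19, 1), (21, 2), (23, 4), (24, 6), (25, 10)]
def oE4 : List (ℕ × ℕ) := [(0, 1), (5, 9), (6, 10), (7, 11), (8, 13), (12, 17), (14, 18), (15, 19), (16, 20), (24,
  25)]
def oF4 : List (ℕ × ℕ) := [(8, 17)]
def oG4 : List (ℕ × ℕ) := [(3, 4), (5, 6), (9, 10), (15, 16), (19, 20), (21, 22)]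
def eE4 : List (ℕ × ℕ) := [(2, 1), (5, 3), (6, 4), (8, 7), (13, 11), (14, 12), (18, 17), (21, 19), (22, 20), (24, 23)]
def eF4 : List (ℕ × ℕ) := [(14, 11)]
def eG4 : List (ℕ × ℕ) := [(3, 2), (7, 6), (11, 10), (15, 14), (19, 18), (23, 22)]
def eH4 : List (ℕ × ℕ) := [(3, 1), (5, 2), (7, 4), (8, 6), (13, 10), (15, 12), (19, 17), (21, 18), (23, 20), (24, 22)]
def eI4 : List (ℕ × ℕ) := [(15, 10)]
def eJ4 : List (ℕ × ℕ) := [(5, 1), (8, 4), (14, 10), (15, 11), (21, 17), (24, 20)]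
def oE5 : List (ℕ × ℕ) := [(0, 6), (1, 10), (3, 13), (5, 14), (7, 16), (9, 18), (11, 20), (12, 22), (15, 24), (19,
  25)]
def oF5 : List (ℕ × ℕ) := [(3, 22)]
def oG5 : List (ℕ × ℕ) := [(0, 11), (2, 17), (5, 19), (6, 20), (8, 23), (14, 25)]
def eE5 : List (ℕ × ℕ) := [(0, 2), (3, 9), (4, 10), (7, 12), (7, 13), (8, 14), (11, 17), (12, 18), (13, 18), (15, 21),
  (16, 22), (23, 25)]
def eF5 : List (ℕ × ℕ) := [(7, 18)]
def eG5 : List (ℕ × ℕ) := [(2, 4), (5, 7), (9, 11), (14, 16), (18, 20), (21, 23)]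
def eH5 : List (ℕ × ℕ) := [(0, 4), (2, 10), (3, 11), (5, 12), (5, 13), (8, 16), (9, 17), (12, 20), (13, 20), (14, 22),
  (15, 23), (21, 25)]
def eI5 : List (ℕ × ℕ) := [(5, 20)]
def eJ5 : List (ℕ × ℕ) := [(0, 10), (3, 17), (5, 18), (7, 20), (8, 22), (15, 25)]
def oE6 : List (ℕ × ℕ) := [(0, 7), (1, 11), (2, 13), (5, 15), (6, 16), (9, 19), (10, 20), (12, 23), (14, 24), (18,
  25)]
def oF6 : List (ℕ × ℕ) := [(2, 23)]
def oG6 : List (ℕ × ℕ) := [(0, 14), (1, 18), (3, 21), (4, 22), (7, 24), (11, 25)]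
def eE6 : List (ℕ × ℕ) := [(1, 4), (2, 6), (3, 7), (5, 8), (9, 12), (13, 16), (17, 20), (18, 22), (19, 23), (21, 24)]
def eF6 : List (ℕ × ℕ) := [(9, 16)]
def eG6 : List (ℕ × ℕ) := [(0, 9), (4, 17), (6, 18), (7, 19), (8, 21), (16, 25)]
def eH6 : List (ℕ × ℕ) := [(0, 12), (1, 17), (2, 18), (3, 19), (4, 20), (5, 21), (6, 22), (7, 23), (8, 24), (13, 25)]
def eI6 : List (ℕ × ℕ) := [(0, 25)]
def eJ6 : List (ℕ × ℕ) := [(0, 16), (1, 20), (2, 22), (3, 23), (5, 24), (9, 25)]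
def oE7 : List (ℕ × ℕ) := [(0, 5), (1, 9), (4, 13), (6, 14), (7, 15), (10, 18), (11, 19), (12, 21), (16, 24), (20,
  25)]
def oF7 : List (ℕ × ℕ) := [(4, 21)]
def oG7 : List (ℕ × ℕ) := [(1, 7), (2, 8), (9, 15), (10, 16), (17, 23), (18, 24)]
def eE7 : List (ℕ × ℕ) := [(0, 3), (2, 9), (4, 11), (6, 12), (6, 13), (8, 15), (10, 17), (12, 19), (13, 19), (14, 21),
  (16, 23), (22, 25)]
def eF7 : List (ℕ × ℕ) := [(6, 19)]
def eG7 : List (ℕ × ℕ) := [(1, 6), (3, 8), (9, 14), (11, 16), (17, 22), (19, 24)]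
def eH7 : List (ℕ × ℕ) := [(0, 8), (1, 12), (1, 13), (2, 14), (3, 15), (4, 16), (9, 21), (10, 22), (11, 23), (12, 24),
  (13, 24), (17, 25)]
def eI7 : List (ℕ × ℕ) := [(1, 24)]
def eJ7 : List (ℕ × ℕ) := [(0, 15), (1, 19), (2, 21), (4, 23), (6, 24), (10, 25)]

def oE : ℕ → List (ℕ × ℕ)
  | 0 => oE0
  | 1 => oE1
  | 2 => oE2
  | 3 => oE3
  | 4 => oE4
  | 5 => oE5
  | 6 => oE6
  | _ => oE7
def oF : ℕ → List (ℕ × ℕ)
  | 0 => oF0
  | 1 => oF1
  | 2 => oF2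
  | 3 => oF3
  | 4 => oF4
  | 5 => oF5
  | 6 => oF6
  | _ => oF7
def oG : ℕ → List (ℕ × ℕ)
  | 0 => oG0
  | 1 => oG1
  | 2 => oG2
  | 3 => oG3
  | 4 => oG4
  | 5 => oG5
  | 6 => oG6
  | _ => oG7
def eE : ℕ → List (ℕ × ℕ)
  | 0 => eE0
  | 1 => eE1
  | 2 => eE2
  | 3 => eE3
  | 4 => eE4
  | 5 => eE5
  | 6 => eE6
  | _ => eE7
def eF : ℕ → List (ℕ × ℕ)
  | 0 => eF0
  | 1 => eF1
  | 2 => eF2
  | 3 => eF3
  | 4 => eF4
  | 5 => eF5
  | 6 => eF6
  | _ => eF7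
def eG : ℕ → List (ℕ × ℕ)
  | 0 => eG0
  | 1 => eG1
  | 2 => eG2
  | 3 => eG3
  | 4 => eG4
  | 5 => eG5
  | 6 => eG6
  | _ => eG7
def eH : ℕ → List (ℕ × ℕ)
  | 0 => eH0
  | 1 => eH1
  | 2 => eH2
  | 3 => eH3
  | 4 => eH4
  | 5 => eH5
  | 6 => eH6
  | _ => eH7
def eI : ℕ → List (ℕ × ℕ)
  | 0 => eI0
  | 1 => eI1
  | 2 => eI2
  | 3 => eI3
  | 4 => eI4
  | 5 => eI5
  | 6 => eI6
  | _ => eI7
def eJ : ℕ → List (ℕ × ℕ)
  | 0 => eJ0
  | 1 => eJ1
  | 2 => eJ2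
  | 3 => eJ3
  | 4 => eJ4
  | 5 => eJ5
  | 6 => eJ6
  | _ => eJ7

/-- check of the tables of a root -/
def chkR (r : ℕ) (E F : List (ℕ × ℕ)) : Bool :=
  (E.all fun e => Nat.blt e.2 26) && (F.all fun e => Nat.blt e.2 26) &&
  (List.range 26).all fun i => (List.range 26).all fun j =>
    Nat.beq (E.count (i, j)) (cond (bitAt (PE r) (nthN ioN i) (nthN ioN j)) 1 0) &&
    Nat.beq (F.count (i, j)) (cond (bitAt (PF r) (nthN ioN i) (nthN ioN j)) 1 0)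

/-- the check for one index -/
def chkA (a : ℕ) : Bool :=
  chkR (oA (a : ZMod 8)) (oE a) (oF a) && chkR (oB (a : ZMod 8)) (oG a) [] && chkR (eA (a : ZMod 8)) (eE a) (eF a) &&
    chkR (eB (a : ZMod 8)) (eG a) [] && chkR (eC (a : ZMod 8)) (eH a) (eI a) && chkR (eD (a : ZMod 8)) (eJ a) []

theorem chkA0 : chkA 0 = true := by decide +kernel

theorem chkA1 : chkA 1 = true := by decide +kernel

theorem chkA2 : chkA 2 = true := by decide +kernel

theorem chkA3 : chkA 3 = true := by decide +kernel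

theorem chkA4 : chkA 4 = true := by decide +kernel

theorem chkA5 : chkA 5 = true := by decide +kernel

theorem chkA6 : chkA 6 = true := by decide +kernel

theorem chkA7 : chkA 7 = true := by decide +kernel

theorem chk_all : ((List.range 8).all fun a =>
    chkR (oA (a : ZMod 8)) (oE a) (oF a) && chkR (oB (a : ZMod 8)) (oG a) [] && chkR (eA (a : ZMod 8)) (eE a) (eF a) &&
    chkR (eB (a : ZMod 8)) (eG a) [] && chkR (eC (a : ZMod 8)) (eH a) (eI a) && chkR (eD (a : ZMod 8)) (eJ a) []) = true := by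
  rw [List.all_eq_true]
  intro a ha
  have ha' := List.mem_range.1 ha
  show chkA a = true
  interval_cases a
  · exact chkA0
  · exact chkA1
  · exact chkA2
  · exact chkA3
  · exact chkA4
  · exact chkA5
  · exact chkA6
  · exact chkA7

variable {K : Type*} [Field K] [CharP K 2]

theorem Amat_of_chk {r : ℕ} (hr : r < 48) {E F : List (ℕ × ℕ)} (h : chkR r E F = true) (t : K) :
    Amat (chevF4.x K r t) = 1 + t • Code.sp K E + t ^ 2 • Code.sp K F := by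
  ext i j
  unfold chkR at h
  rw [Bool.and_eq_true, Bool.and_eq_true, List.all_eq_true] at h
  have h1 := List.all_eq_true.1 h.2 i.val (List.mem_range.2 i.2)
  have h2 := List.all_eq_true.1 h1 j.val (List.mem_range.2 j.2)
  rw [Bool.and_eq_true] at h2
  have hE := Nat.eq_of_beq_eq_true h2.1
  have hF := Nat.eq_of_beq_eq_true h2.2
  rw [Amat_apply, x_entry r hr, pos_io, pos_io, Matrix.add_apply, Matrix.add_apply, Matrix.smul_apply, Matrix.smul_apply,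
    Matrix.one_apply]
  simp only [io_inj.eq_iff, Code.sp, Matrix.of_apply, hE, hF, smul_eq_mul]
  have e1 : ∀ M : ℕ, (if M.testBit (52 * nthN ioN i + nthN ioN j) then (1 : K) else 0) =
      ((cond (bitAt M (nthN ioN i) (nthN ioN j)) 1 0 : ℕ) : K) := by
    intro M
    unfold bitAt
    cases M.testBit (52 * nthN ioN i + nthN ioN j) <;> simp
  rw [e1, e1]

/-- action of `x_r(t)`, `r` short -/
def xS (E F : List (ℕ × ℕ)) (t M : ℕ) : ℕ :=
  match M with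
  | 0 => 0
  | M => Nat.xor M (Nat.xor (sm t (lmul E M)) (sm (sq t) (lmul F M)))
where
  /-- squares -/
  sq : ℕ → ℕ
  | 0 => 0 | 1 => 1 | 2 => 4 | 3 => 5 | 4 => 6 | 5 => 7 | 6 => 2 | _ => 3

/-- action of `x_r(t)`, `r` long -/
def xL (E : List (ℕ × ℕ)) (t M : ℕ) : ℕ :=
  match M with
  | 0 => 0
  | M => Nat.xor M (sm t (lmul E M))

/-- fourth powers -/
def sg : ℕ → ℕ
  | 0 => 0 | 1 => 1 | 2 => 6 | 3 => 7 | 4 => 2 | 5 => 3 | 6 => 4 | _ => 5

/-- fifth powers -/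
def p5 : ℕ → ℕ
  | 0 => 0 | 1 => 1 | 2 => 7 | 3 => 2 | 4 => 3 | 5 => 4 | 6 => 5 | _ => 6

/-- action of `o a t` -/
def ao (a t M : ℕ) : ℕ :=
  match M with
  | 0 => 0
  | M => cond (Nat.beq t 0) M (xS (oE a) (oF a) t (xL (oG a) (sg t) M))

/-- action of `e a p u` -/
def ae (a p u M : ℕ) : ℕ :=
  match M with
  | 0 => 0
  | M => aux a p u (aux2 a p u M)
where
  /-- first part -/
  aux (a p u M : ℕ) : ℕ :=
    match M with
    | 0 => 0
    | M => cond (Nat.beq p 0) M (xS (eE a) (eF a) p (xL (eG a) (sg p) M))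
  /-- second part -/
  aux2 (a p u M : ℕ) : ℕ :=
    match M with
    | 0 => 0
    | M => xS (eH a) (eI a) (Nat.xor (p5 p) u) (xL (eJ a) (sg u) M)

section sem
variable {θ : K}

theorem gf_xor (n m : ℕ) : gf θ (n ^^^ m) = gf θ n + gf θ m := by
  unfold gf
  simp only [Nat.testBit_xor, bk_xor]
  ring

theorem gf_zero : gf θ 0 = 0 := by simp [gf, bk]
theorem gf_one : gf θ 1 = 1 := by simp [gf, bk, show Nat.testBit 1 1 = false by decide, show Nat.testBit 1 2 = false by decide]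

theorem t2 : (2 : K) = 0 := CharTwo.two_eq_zero

theorem gf_vals : gf θ 0 = 0 ∧ gf θ 1 = 1 ∧ gf θ 2 = θ ∧ gf θ 3 = 1 + θ ∧ gf θ 4 = θ ^ 2 ∧ gf θ 5 = 1 + θ ^ 2 ∧
    gf θ 6 = θ + θ ^ 2 ∧ gf θ 7 = 1 + θ + θ ^ 2 := by
  refine ⟨?_, ?_, ?_, ?_, ?_, ?_, ?_, ?_⟩ <;>
  · unfold gf
    simp [bk, Nat.testBit]

theorem gf_sq (hθ : θ ^ 3 = θ + 1) {n : ℕ} (hn : n < 8) : gf θ (xS.sq n) = gf θ n ^ 2 := by
  obtain ⟨h0, h1, h2, h3, h4, h5, h6, h7⟩ := gf_vals (θ := θ)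
  have two := t2 (K := K)
  have h44 : θ ^ 4 = θ + θ ^ 2 := by linear_combination θ * hθ
  interval_cases n
  · show gf θ 0 = _; rw [h0]; ring
  · show gf θ 1 = _; rw [h1]; ring
  · show gf θ 4 = _; rw [h4, h2]
  · show gf θ 5 = _; rw [h5, h3]; linear_combination (-θ) * two
  · show gf θ 6 = _; rw [h6, h4]; linear_combination (-1) * h44
  · show gf θ 7 = _; rw [h7, h5]; linear_combination (-1) * h44 - θ ^ 2 * two
  · show gf θ 2 = _; rw [h2, h6]; linear_combination (-1) * h44 - (θ ^ 2 + θ ^ 3) * two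
  · show gf θ 3 = _; rw [h3, h7]; linear_combination (-1) * h44 - (θ ^ 2 + θ + θ ^ 2 + θ ^ 3) * two

end sem

/-! ### multiplication of codes -/

/-- `θ` times the code -/
def tm (m : ℕ) : ℕ := Nat.xor (Nat.mod (Nat.mul 2 m) 8) (cond (Nat.testBit m 2) 3 0)

/-- product of codes -/
def gm (n m : ℕ) : ℕ :=
  Nat.xor (cond (Nat.testBit n 0) m 0) (Nat.xor (cond (Nat.testBit n 1) (tm m) 0) (cond (Nat.testBit n 2) (tm (tm m)) 0))

section sem2
variable {θ : K}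

theorem tm_lt {m : ℕ} (hm : m < 8) : tm m < 8 := by
  revert m; decide

theorem gf_tm (hθ : θ ^ 3 = θ + 1) {m : ℕ} (hm : m < 8) : gf θ (tm m) = θ * gf θ m := by
  obtain ⟨h0, h1, h2, h3, h4, h5, h6, h7⟩ := gf_vals (θ := θ)
  interval_cases m
  · show gf θ 0 = _; rw [h0]; ring
  · show gf θ 2 = _; rw [h1, h2]; ring
  · show gf θ 4 = _; rw [h4, h2]; ring
  · show gf θ 6 = _; rw [h6, h3]; ring
  · show gf θ 3 = _; rw [h3, h4]; linear_combination (-1) * hθ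
  · show gf θ 1 = _; rw [h1, h5]; linear_combination (-1) * hθ - θ * t2 (K := K)
  · show gf θ 7 = _; rw [h7, h6]; linear_combination (-1) * hθ
  · show gf θ 5 = _; rw [h5, h7]; linear_combination (-1) * hθ - θ * t2 (K := K)

theorem gf_cond (b : Bool) (m : ℕ) : gf θ (cond b m 0) = bk K b * gf θ m := by
  cases b
  · rw [cond_false, gf_zero]; simp [bk]
  · rw [cond_true]; simp [bk]

theorem gf_gm (hθ : θ ^ 3 = θ + 1) {n m : ℕ} (hm : m < 8) : gf θ (gm n m) = gf θ n * gf θ m := by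
  show gf θ ((cond (Nat.testBit n 0) m 0) ^^^ ((cond (Nat.testBit n 1) (tm m) 0) ^^^ (cond (Nat.testBit n 2) (tm (tm m)) 0))) = _
  rw [gf_xor, gf_xor, gf_cond, gf_cond, gf_cond, gf_tm hθ (tm_lt hm), gf_tm hθ hm]
  unfold gf
  ring

theorem gf_sg (hθ : θ ^ 3 = θ + 1) {n : ℕ} (hn : n < 8) : gf θ (sg n) = (gf θ n ^ 2) ^ 2 := by
  have e : sg n = xS.sq (xS.sq n) := by interval_cases n <;> rfl
  have l : xS.sq n < 8 := by interval_cases n <;> decide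
  rw [e, gf_sq hθ l, gf_sq hθ hn]

theorem gf_p5 (hθ : θ ^ 3 = θ + 1) {n : ℕ} (hn : n < 8) : gf θ (p5 n) = gf θ n * gf θ (sg n) := by
  have e : p5 n = gm n (sg n) := by interval_cases n <;> rfl
  have l : sg n < 8 := by interval_cases n <;> decide
  rw [e, gf_gm hθ l]

/-- inverses of codes -/
def gi : ℕ → ℕ
  | 0 => 0 | 1 => 1 | 2 => 5 | 3 => 6 | 4 => 7 | 5 => 2 | 6 => 3 | _ => 4

theorem gf_ne_zero (hθ : θ ^ 3 = θ + 1) {n : ℕ} (hn : n < 8) (h0 : n ≠ 0) : gf θ n ≠ 0 := by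
  intro h
  have e : gm (gi n) n = 1 := by interval_cases n <;> first | exact absurd rfl h0 | rfl
  have h2 := gf_gm hθ (n := gi n) hn
  rw [e, h, mul_zero, gf_one] at h2
  exact one_ne_zero h2

theorem gf_inj (hθ : θ ^ 3 = θ + 1) {n m : ℕ} (hn : n < 8) (hm : m < 8) (h : gf θ n = gf θ m) : n = m := by
  by_contra hne
  have h1 : n ^^^ m ≠ 0 := fun e => hne (Nat.xor_eq_zero_iff.1 e)
  have h2 : n ^^^ m < 8 := Nat.xor_lt_two_pow (n := 3) hn hm
  refine gf_ne_zero hθ h2 h1 ?_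
  rw [gf_xor, h, CharTwo.add_self_eq_zero]

theorem gf_surj [Fintype K] (hK : Fintype.card K = 8) (hθ : θ ^ 3 = θ + 1) (x : K) : ∃ n < 8, gf θ n = x := by
  have h : Function.Bijective (fun n : Fin 8 => gf θ n.val) := by
    rw [Fintype.bijective_iff_injective_and_card]
    exact ⟨fun a b h => Fin.ext (gf_inj hθ a.2 b.2 h), by rw [hK, Fintype.card_fin]⟩
  obtain ⟨n, hn⟩ := h.2 x
  exact ⟨n.val, n.2, hn⟩

end sem2

/-! ### semantics of the actions -/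

section sem3
variable {θ : K}

theorem sp_nil : Code.sp K [] = 0 := by
  ext i j
  simp [Code.sp]

theorem sem_xS (hθ : θ ^ 3 = θ + 1) {E F : List (ℕ × ℕ)} (hE : ∀ e ∈ E, e.2 < 26) (hF : ∀ e ∈ F, e.2 < 26) {t : ℕ}
    (ht : t < 8) (M : ℕ) :
    sem θ (xS E F t M) = (1 + gf θ t • Code.sp K E + (gf θ t) ^ 2 • Code.sp K F) * sem θ M := by
  have e : xS E F t M = M ^^^ (sm t (lmul E M) ^^^ sm (xS.sq t) (lmul F M)) := by
    cases M with
    | zero =>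
      have h : ∀ l : List (ℕ × ℕ), lmul l 0 = 0 := by
        intro l
        induction l with
        | nil => rfl
        | cons e l ih => show (lmul l 0) ^^^ (mv 0 e.1 e.2) = 0; rw [ih]; simp [mv]
      rw [h, h, show ∀ n, sm n 0 = 0 from fun n => rfl, show ∀ n, sm n 0 = 0 from fun n => rfl]; rfl
    | succ M => rfl
  rw [e, sem_xor, sem_xor, sem_sm hθ, sem_sm hθ, sem_lmul θ E hE, sem_lmul θ F hF, gf_sq hθ ht, Matrix.add_mul, Matrix.add_mul,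
    Matrix.one_mul, Matrix.smul_mul, Matrix.smul_mul, add_assoc]

theorem sem_xL (hθ : θ ^ 3 = θ + 1) {E : List (ℕ × ℕ)} (hE : ∀ e ∈ E, e.2 < 26) (t M : ℕ) :
    sem θ (xL E t M) = (1 + gf θ t • Code.sp K E) * sem θ M := by
  have e : xL E t M = M ^^^ (sm t (lmul E M)) := by
    cases M with
    | zero =>
      have h : ∀ l : List (ℕ × ℕ), lmul l 0 = 0 := by
        intro l
        induction l with
        | nil => rfl
        | cons e l ih => show (lmul l 0) ^^^ (mv 0 e.1 e.2) = 0; rw [ih]; simp [mv]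
      rw [h, show ∀ n, sm n 0 = 0 from fun n => rfl]; rfl
    | succ M => rfl
  rw [e, sem_xor, sem_sm hθ, sem_lmul θ E hE, Matrix.add_mul, Matrix.one_mul, Matrix.smul_mul]

theorem okl_of_chk {r : ℕ} {E F : List (ℕ × ℕ)} (h : chkR r E F = true) :
    (∀ e ∈ E, e.2 < 26) ∧ (∀ e ∈ F, e.2 < 26) := by
  unfold chkR at h
  rw [Bool.and_eq_true, Bool.and_eq_true, List.all_eq_true, List.all_eq_true] at h
  exact ⟨fun e he => by simpa [Nat.blt_eq] using h.1.1 e he, fun e he => by simpa [Nat.blt_eq] using h.1.2 e he⟩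

theorem Amat_S (hθ : θ ^ 3 = θ + 1) {r : ℕ} (hr : r < 48) {E F : List (ℕ × ℕ)} (h : chkR r E F = true) {t : ℕ}
    (ht : t < 8) (M : ℕ) :
    sem θ (xS E F t M) = Amat (chevF4.x K r (gf θ t)) * sem θ M := by
  rw [sem_xS hθ (okl_of_chk h).1 (okl_of_chk h).2 ht, Amat_of_chk hr h]

theorem Amat_L (hθ : θ ^ 3 = θ + 1) {r : ℕ} (hr : r < 48) {E : List (ℕ × ℕ)} (h : chkR r E [] = true) (t M : ℕ) :
    sem θ (xL E t M) = Amat (chevF4.x K r (gf θ t)) * sem θ M := by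
  rw [sem_xL hθ (okl_of_chk h).1, Amat_of_chk hr h, sp_nil, smul_zero, add_zero]

theorem chk_a {a : ℕ} (ha : a < 8) : chkR (oA (a : ZMod 8)) (oE a) (oF a) = true ∧ chkR (oB (a : ZMod 8)) (oG a) [] = true ∧
    chkR (eA (a : ZMod 8)) (eE a) (eF a) = true ∧ chkR (eB (a : ZMod 8)) (eG a) [] = true ∧
    chkR (eC (a : ZMod 8)) (eH a) (eI a) = true ∧ chkR (eD (a : ZMod 8)) (eJ a) [] = true := by
  have h := List.all_eq_true.1 chk_all a (List.mem_range.2 ha)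
  simp only [Bool.and_eq_true] at h
  tauto

variable [Finite K] {φ : K →+* K}

theorem Amat_GL (g h : GL chevF4.Idx K) (hh : h ∈ BlkG K) :
    Amat ((g * h : GL chevF4.Idx K) : Matrix chevF4.Idx chevF4.Idx K) =
      Amat (g : Matrix chevF4.Idx chevF4.Idx K) * Amat (h : Matrix chevF4.Idx chevF4.Idx K) := by
  rw [Units.val_mul]
  exact Amat_mul hh

theorem phi_gf (hφ : Rln φ (2 ^ 1)) (hθ : θ ^ 3 = θ + 1) {t : ℕ} (ht : t < 8) : φ (gf θ t) = gf θ (sg t) := by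
  rw [gf_sg hθ ht, hφ.phi]; norm_num

theorem sem_ao (hφ : Rln φ (2 ^ 1)) (hθ : θ ^ 3 = θ + 1) {a t : ℕ} (ha : a < 8) (ht : t < 8) (M : ℕ) :
    sem θ (ao a t M) = Amat ((Cfsg.Agent.KFacts.TwF4.Inst.go φ (a : ZMod 8) (gf θ t) : GL chevF4.Idx K) :
      Matrix chevF4.Idx chevF4.Idx K) * sem θ M := by
  cases M with
  | zero => show sem θ 0 = _; rw [sem_zero, Matrix.mul_zero]
  | succ M =>
    show sem θ (cond (Nat.beq t 0) (M + 1) (xS (oE a) (oF a) t (xL (oG a) (sg t) (M + 1)))) = _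
    obtain ⟨h1, h2, -⟩ := chk_a ha
    obtain ⟨l1, l2, -⟩ := Cfsg.Agent.KFacts.TwF4.Inst.lt48 (a : ZMod 8)
    have key : sem θ (xS (oE a) (oF a) t (xL (oG a) (sg t) (M + 1))) =
        Amat ((Cfsg.Agent.KFacts.TwF4.Inst.go φ (a : ZMod 8) (gf θ t) : GL chevF4.Idx K) :
          Matrix chevF4.Idx chevF4.Idx K) * sem θ (M + 1) := by
      rw [Amat_S hθ l1 h1 ht, Amat_L hθ l2 h2]
      have e : Cfsg.Agent.KFacts.TwF4.Inst.go φ (a : ZMod 8) (gf θ t) =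
        X (oA (a : ZMod 8)) (gf θ t) * X (oB (a : ZMod 8)) (φ (gf θ t)) := rfl
      rw [e, Amat_GL _ _ (X_mem_BlkG _ _), coe_X, coe_X, phi_gf hφ hθ ht, Matrix.mul_assoc]
    by_cases h0 : t = 0
    · subst h0
      rw [← key]
      show sem θ (M + 1) = _
      rw [sem_xS hθ (okl_of_chk h1).1 (okl_of_chk h1).2 ht, sem_xL hθ (okl_of_chk h2).1]
      simp [gf_zero, show sg 0 = 0 from rfl]
    · have : Nat.beq t 0 = false := by
        cases t with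
        | zero => exact absurd rfl h0
        | succ t => rfl
      rw [this, cond_false, key]

theorem sem_ae (hφ : Rln φ (2 ^ 1)) (hθ : θ ^ 3 = θ + 1) {a p u : ℕ} (ha : a < 8) (hp : p < 8) (hu : u < 8) (M : ℕ) :
    sem θ (ae a p u M) = Amat ((Cfsg.Agent.KFacts.TwF4.Inst.ge φ (a : ZMod 8) (gf θ p) (gf θ u) : GL chevF4.Idx K) :
      Matrix chevF4.Idx chevF4.Idx K) * sem θ M := by
  obtain ⟨-, -, h3, h4, h5, h6⟩ := chk_a ha
  obtain ⟨-, -, l3, l4, l5, l6⟩ := Cfsg.Agent.KFacts.TwF4.Inst.lt48 (a : ZMod 8)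
  have hc : Nat.xor (p5 p) u < 8 := Nat.xor_lt_two_pow (n := 3) (by interval_cases p <;> decide) hu
  have k2 : ∀ M : ℕ, sem θ (ae.aux2 a p u M) = Amat (chevF4.x K (eC (a : ZMod 8)) (gf θ p * φ (gf θ p) + gf θ u)) *
      (Amat (chevF4.x K (eD (a : ZMod 8)) (φ (gf θ u))) * sem θ M) := by
    intro M
    cases M with
    | zero => show sem θ 0 = _; rw [sem_zero, Matrix.mul_zero, Matrix.mul_zero]
    | succ M =>
      show sem θ (xS (eH a) (eI a) (Nat.xor (p5 p) u) (xL (eJ a) (sg u) (M + 1))) = _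
      rw [Amat_S hθ l5 h5 hc, Amat_L hθ l6 h6, phi_gf hφ hθ hp, phi_gf hφ hθ hu]
      have : gf θ (Nat.xor (p5 p) u) = gf θ p * gf θ (sg p) + gf θ u := by
        show gf θ (p5 p ^^^ u) = _
        rw [gf_xor, gf_p5 hθ hp]
      rw [this]
  have k1 : ∀ M : ℕ, sem θ (ae.aux a p u M) = Amat (chevF4.x K (eA (a : ZMod 8)) (gf θ p)) *
      (Amat (chevF4.x K (eB (a : ZMod 8)) (φ (gf θ p))) * sem θ M) := by
    intro M
    cases M with
    | zero => show sem θ 0 = _; rw [sem_zero, Matrix.mul_zero, Matrix.mul_zero]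
    | succ M =>
      show sem θ (cond (Nat.beq p 0) (M + 1) (xS (eE a) (eF a) p (xL (eG a) (sg p) (M + 1)))) = _
      have key : sem θ (xS (eE a) (eF a) p (xL (eG a) (sg p) (M + 1))) = Amat (chevF4.x K (eA (a : ZMod 8)) (gf θ p)) *
          (Amat (chevF4.x K (eB (a : ZMod 8)) (φ (gf θ p))) * sem θ (M + 1)) := by
        rw [Amat_S hθ l3 h3 hp, Amat_L hθ l4 h4, phi_gf hφ hθ hp]
      by_cases h0 : p = 0
      · subst h0
        rw [← key]
        show sem θ (M + 1) = _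
        rw [sem_xS hθ (okl_of_chk h3).1 (okl_of_chk h3).2 hp, sem_xL hθ (okl_of_chk h4).1]
        simp [gf_zero, show sg 0 = 0 from rfl]
      · have : Nat.beq p 0 = false := by
          cases p with
          | zero => exact absurd rfl h0
          | succ t => rfl
        rw [this, cond_false, key]
  have e : Cfsg.Agent.KFacts.TwF4.Inst.ge φ (a : ZMod 8) (gf θ p) (gf θ u) =
      X (eA (a : ZMod 8)) (gf θ p) * X (eB (a : ZMod 8)) (φ (gf θ p)) *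
        X (eC (a : ZMod 8)) (gf θ p * φ (gf θ p) + gf θ u) * X (eD (a : ZMod 8)) (φ (gf θ u)) := rfl
  rw [e, Amat_GL _ _ (X_mem_BlkG _ _), Amat_GL _ _ (X_mem_BlkG _ _), Amat_GL _ _ (X_mem_BlkG _ _), coe_X, coe_X, coe_X, coe_X]
  cases M with
  | zero => show sem θ 0 = _; rw [sem_zero, Matrix.mul_zero]
  | succ M =>
    show sem θ (ae.aux a p u (ae.aux2 a p u (M + 1))) = _
    rw [k1, k2]
    simp only [Matrix.mul_assoc]

end sem3

end Cfsg.Agent.H857.Ree8.Root
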