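import Cfsg.Agent.H857.Ree8.Root

/-!
# Words in the root elements of `²F₄(8)`, their packed matrices and traces
-/

set_option autoImplicit false
set_option linter.unusedSectionVars false
set_option maxRecDepth 20000

namespace Cfsg.Agent.H857.Ree8.Word

open Cfsg.Lie Cfsg.Agent.ChevalleyStructure.TwF4.TwistedFix
open Cfsg.Agent.H857.Ree8.Root Cfsg.Agent.H857.Ree8.Code
open Cfsg.Agent.KFacts.TwF4

/-- a root element -/
inductive Tok
  | o (a t : ℕ)
  | e (a p u : ℕ)
deriving DecidableEq

/-- the action on packed matrices -/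
def act : Tok → ℕ → ℕ
  | .o a t, M => ao a t M
  | .e a p u, M => ae a p u M

/-- the action of a word -/
def ev (w : List Tok) (M : ℕ) : ℕ := w.foldr act M

/-- the codes are in range -/
def ok1 : Tok → Bool
  | .o a t => Nat.blt a 8 && Nat.blt t 8
  | .e a p u => Nat.blt a 8 && (Nat.blt p 8 && Nat.blt u 8)

/-- the codes are in range -/
def ok (w : List Tok) : Bool := w.all ok1

/-- the identity matrix -/
def idM : ℕ := (List.range 26).foldr (fun i M => Nat.xor M (Nat.shiftLeft 1 (Nat.mul 79 i))) 0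

/-- the inverse of a root element -/
def inv1 : Tok → Tok
  | .o a t => .o a t
  | .e a p u => .e a p (Nat.xor u (p5 p))

/-- the inverse word -/
def inv (w : List Tok) : List Tok := (w.map inv1).reverse

/-- the power of a word -/
def pw (w : List Tok) : ℕ → List Tok
  | 0 => []
  | n + 1 => w ++ pw w n

theorem ok_nil : ok [] = true := rfl
theorem ok_cons {t : Tok} {w : List Tok} : ok (t :: w) = (ok1 t && ok w) := rfl
theorem ok_append {v w : List Tok} : ok (v ++ w) = (ok v && ok w) := by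
  unfold ok; rw [List.all_append]

theorem ok_pw {w : List Tok} (h : ok w = true) (n : ℕ) : ok (pw w n) = true := by
  induction n with
  | zero => rfl
  | succ n ih => rw [pw, ok_append, h, ih]; rfl

theorem xor_lt {a b : ℕ} (ha : a < 8) (hb : b < 8) : Nat.xor a b < 8 := Nat.xor_lt_two_pow (n := 3) ha hb

theorem p5_lt (p : ℕ) : p5 p < 8 := by
  unfold p5; split <;> norm_num

theorem ok1_inv {t : Tok} (h : ok1 t = true) : ok1 (inv1 t) = true := by
  cases t with
  | o a t => exact h
  | e a p u =>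
    simp only [ok1, inv1, Bool.and_eq_true, Nat.blt_eq] at h ⊢
    exact ⟨h.1, h.2.1, xor_lt h.2.2 (p5_lt p)⟩

theorem ok_inv {w : List Tok} (h : ok w = true) : ok (inv w) = true := by
  unfold ok inv at *
  rw [List.all_eq_true] at h ⊢
  intro t ht
  rw [List.mem_reverse, List.mem_map] at ht
  obtain ⟨s, hs, rfl⟩ := ht
  exact ok1_inv (h s hs)

theorem id_chk : ((List.range 26).all fun i => (List.range 26).all fun j =>
    (idM.testBit (78 * i + j) == Nat.beq i j) && !(idM.testBit (78 * i + j + 26)) && !(idM.testBit (78 * i + j + 52))) =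
    true := by decide +kernel

section

variable {K : Type*} [Field K] [CharP K 2] [Finite K] {φ : K →+* K} (hφ : Rln φ (2 ^ 1)) {θ : K}

theorem sem_idM : sem θ idM = 1 := by
  ext i j
  have h := List.all_eq_true.1 id_chk i.val (List.mem_range.2 i.2)
  have h2 := List.all_eq_true.1 h j.val (List.mem_range.2 j.2)
  simp only [Bool.and_eq_true, Bool.not_eq_true', beq_iff_eq] at h2
  rw [sem_apply, co, h2.1.1, h2.1.2, h2.2, Matrix.one_apply]
  by_cases hij : i = j
  · subst hij
    rw [if_pos rfl, show Nat.beq i.val i.val = true from Nat.beq_refl _]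
    simp [bk]
  · have : Nat.beq i.val j.val = false := by
      rw [Bool.eq_false_iff]
      intro e
      exact hij (Fin.ext (Nat.eq_of_beq_eq_true e))
    rw [if_neg hij, this]
    simp [bk]

/-- the group -/
abbrev GG (K : Type*) [Field K] : Type _ := ↥(twistedF4 K (2 ^ 1))

/-- the 26-dimensional representation -/
noncomputable def AG (K : Type*) [Field K] [CharP K 2] [Finite K] : GG K →* Matrix (Fin 26) (Fin 26) K :=
  Cfsg.Agent.H977.TwF4Two.homA _ (Cfsg.Agent.H977.TwF4Two.twistedF4_le (K := K) (2 ^ 1))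

variable (θ) in
/-- the group element of a root element -/
noncomputable def tg : Tok → GG K
  | .o a t => Inst.ro hφ (a : ZMod 8) (gf θ t)
  | .e a p u => Inst.re hφ (a : ZMod 8) (gf θ p) (gf θ u)

variable (θ) in
/-- the group element of a word -/
noncomputable def wg (w : List Tok) : GG K := (w.map (tg hφ θ)).prod

theorem wg_nil : wg hφ θ [] = 1 := rfl

theorem wg_cons (t : Tok) (w : List Tok) : wg hφ θ (t :: w) = tg hφ θ t * wg hφ θ w := by
  unfold wg; rw [List.map_cons, List.prod_cons]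

theorem wg_append (v w : List Tok) : wg hφ θ (v ++ w) = wg hφ θ v * wg hφ θ w := by
  unfold wg; rw [List.map_append, List.prod_append]

theorem wg_pw (w : List Tok) (n : ℕ) : wg hφ θ (pw w n) = wg hφ θ w ^ n := by
  induction n with
  | zero => rw [pow_zero]; rfl
  | succ n ih =>
    rw [pw, wg_append, ih]
    exact (pow_succ' _ _).symm

theorem act_sem (hθ : θ ^ 3 = θ + 1) {t : Tok} (ht : ok1 t = true) (M : ℕ) :
    sem θ (act t M) = AG K (tg hφ θ t) * sem θ M := by
  cases t with
  | o a t =>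
    simp only [ok1, Bool.and_eq_true, Nat.blt_eq] at ht
    exact sem_ao hφ hθ ht.1 ht.2 M
  | e a p u =>
    simp only [ok1, Bool.and_eq_true, Nat.blt_eq] at ht
    exact sem_ae hφ hθ ht.1 ht.2.1 ht.2.2 M

theorem sem_ev (hθ : θ ^ 3 = θ + 1) {w : List Tok} (hw : ok w = true) (M : ℕ) :
    sem θ (ev w M) = AG K (wg hφ θ w) * sem θ M := by
  induction w with
  | nil => rw [wg_nil, map_one, Matrix.one_mul]; rfl
  | cons t w ih =>
    rw [ok_cons, Bool.and_eq_true] at hw
    show sem θ (act t (ev w M)) = _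
    rw [act_sem hφ hθ hw.1, ih hw.2, wg_cons, map_mul, Matrix.mul_assoc]

theorem sem_ev_id (hθ : θ ^ 3 = θ + 1) {w : List Tok} (hw : ok w = true) :
    sem θ (ev w idM) = AG K (wg hφ θ w) := by
  rw [sem_ev hφ hθ hw, sem_idM, Matrix.mul_one]

include hφ in
theorem AG_injective [IsSimpleGroup (GG K)] (hna : ¬ IsMulCommutative (GG K)) : Function.Injective (AG K) := by
  rw [injective_iff_map_eq_one]
  intro g hg
  have hF := twisted_le_Fix hφ g.2
  rw [Cfsg.Agent.ChevalleyStructure.TwF4.Fix.mem_Fix] at hF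
  have h1 : g ∈ (Cfsg.Agent.H977.TwF4Two.homA _ (Cfsg.Agent.H977.TwF4Two.twistedF4_le (K := K) (2 ^ 1))).ker ⊓
      (Cfsg.Agent.H977.TwF4Two.homC _ (Cfsg.Agent.H977.TwF4Two.twistedF4_le (K := K) (2 ^ 1))).ker := by
    refine ⟨hg, ?_⟩
    show Cfsg.Agent.ChevalleyStructure.TwF4.Fix.Cmat ((g : GL chevF4.Idx K) : Matrix chevF4.Idx chevF4.Idx K) = 1
    have hg' : Cfsg.Agent.ChevalleyStructure.TwF4.Fix.Amat ((g : GL chevF4.Idx K) : Matrix chevF4.Idx chevF4.Idx K) = 1 := hg
    rw [hF.2, hg', Cfsg.Agent.ChevalleyStructure.TwF4.Fix.map_one']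
  rw [Cfsg.Agent.H977.TwF4Two.ker_bot _ _ hna] at h1
  exact h1

/-- the code of three bits -/
def c3 (M p : ℕ) : ℕ :=
  Nat.add (cond (Nat.testBit M p) 1 0) (Nat.add (cond (Nat.testBit M (Nat.add p 26)) 2 0) (cond (Nat.testBit M (Nat.add p 52)) 4 0))

theorem c3_lt (M p : ℕ) : c3 M p < 8 := by
  show (cond (Nat.testBit M p) 1 0) + ((cond (Nat.testBit M (p + 26)) 2 0) + (cond (Nat.testBit M (p + 52)) 4 0)) < 8
  cases Nat.testBit M p <;> cases Nat.testBit M (p + 26) <;> cases Nat.testBit M (p + 52) <;> simp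

theorem gf_c3 (M p : ℕ) : gf θ (c3 M p) = co θ M p := by
  show gf θ ((cond (Nat.testBit M p) 1 0) + ((cond (Nat.testBit M (p + 26)) 2 0) + (cond (Nat.testBit M (p + 52)) 4 0))) = _
  unfold co
  cases Nat.testBit M p <;> cases Nat.testBit M (p + 26) <;> cases Nat.testBit M (p + 52) <;>
    simp [gf, bk, Nat.testBit]

theorem c3_bits {M N p : ℕ} (h : c3 M p = c3 N p) : M.testBit p = N.testBit p ∧
    M.testBit (p + 26) = N.testBit (p + 26) ∧ M.testBit (p + 52) = N.testBit (p + 52) := by
  have h' : (cond (Nat.testBit M p) 1 0) + ((cond (Nat.testBit M (p + 26)) 2 0) + (cond (Nat.testBit M (p + 52)) 4 0)) =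
    (cond (Nat.testBit N p) 1 0) + ((cond (Nat.testBit N (p + 26)) 2 0) + (cond (Nat.testBit N (p + 52)) 4 0)) := h
  revert h'
  cases Nat.testBit M p <;> cases Nat.testBit M (p + 26) <;> cases Nat.testBit M (p + 52) <;>
    cases Nat.testBit N p <;> cases Nat.testBit N (p + 26) <;> cases Nat.testBit N (p + 52) <;> simp

theorem sem_inj (hθ : θ ^ 3 = θ + 1) {M N : ℕ} (h : sem θ M = sem θ N) : M % 2 ^ 2028 = N % 2 ^ 2028 := by
  have key : ∀ i < 26, ∀ j < 26, M.testBit (78 * i + j) = N.testBit (78 * i + j) ∧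
      M.testBit (78 * i + j + 26) = N.testBit (78 * i + j + 26) ∧
      M.testBit (78 * i + j + 52) = N.testBit (78 * i + j + 52) := by
    intro i hi j hj
    have h1 := congrFun (congrFun h ⟨i, hi⟩) ⟨j, hj⟩
    rw [sem_apply, sem_apply, ← gf_c3, ← gf_c3] at h1
    exact c3_bits (gf_inj hθ (c3_lt _ _) (c3_lt _ _) h1)
  apply Nat.eq_of_testBit_eq
  intro p
  rw [Nat.testBit_mod_two_pow, Nat.testBit_mod_two_pow]
  by_cases hp : p < 2028
  · have e1 : decide (p < 2028) = true := decide_eq_true hp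
    rw [e1, Bool.true_and, Bool.true_and]
    have hi : p / 78 < 26 := by omega
    rcases lt_or_ge (p % 78) 26 with h1 | h1
    · have := (key (p / 78) hi (p % 78) h1).1
      rwa [show 78 * (p / 78) + p % 78 = p by omega] at this
    · rcases lt_or_ge (p % 78) 52 with h2 | h2
      · have := (key (p / 78) hi (p % 78 - 26) (by omega)).2.1
        rwa [show 78 * (p / 78) + (p % 78 - 26) + 26 = p by omega] at this
      · have := (key (p / 78) hi (p % 78 - 52) (by omega)).2.2
        rwa [show 78 * (p / 78) + (p % 78 - 52) + 52 = p by omega] at this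
  · rw [decide_eq_false hp, Bool.false_and, Bool.false_and]

/-- equality of the matrices -/
def beqM (M N : ℕ) : Bool := Nat.beq (Nat.mod M (Nat.shiftLeft 1 2028)) (Nat.mod N (Nat.shiftLeft 1 2028))

theorem not_sem_eq (hθ : θ ^ 3 = θ + 1) {M N : ℕ} (h : beqM M N = false) : sem θ M ≠ sem θ N := by
  intro e
  have h1 := sem_inj hθ e
  have h2 : beqM M N = true := by
    unfold beqM
    have e2 : Nat.shiftLeft 1 2028 = 2 ^ 2028 := Nat.one_shiftLeft 2028
    rw [e2]
    have h3 : Nat.mod M (2 ^ 2028) = Nat.mod N (2 ^ 2028) := h1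
    rw [h3]
    exact Nat.beq_refl _
  rw [h] at h2
  exact Bool.false_ne_true h2

/-- equality of words from the matrices -/
theorem wg_eq [IsSimpleGroup (GG K)] (hna : ¬ IsMulCommutative (GG K)) (hθ : θ ^ 3 = θ + 1) {v w : List Tok}
    (h : (ok v && ok w && Nat.beq (ev v idM) (ev w idM)) = true) : wg hφ θ v = wg hφ θ w := by
  rw [Bool.and_eq_true, Bool.and_eq_true] at h
  apply AG_injective hφ hna
  rw [← sem_ev_id hφ hθ h.1.1, ← sem_ev_id hφ hθ h.1.2, Nat.eq_of_beq_eq_true h.2]

/-- different words -/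
theorem wg_ne (hθ : θ ^ 3 = θ + 1) {v w : List Tok} (M : ℕ)
    (h : (ok v && ok w && !(beqM (ev v M) (ev w M))) = true) : wg hφ θ v ≠ wg hφ θ w := by
  rw [Bool.and_eq_true, Bool.and_eq_true, Bool.not_eq_true'] at h
  intro e
  refine not_sem_eq hθ h.2 ?_
  rw [sem_ev hφ hθ h.1.1, sem_ev hφ hθ h.1.2, e]

/-- the trace -/
def trc (M : ℕ) : ℕ := (List.range 26).foldr (fun i a => Nat.xor (c3 M (Nat.mul 79 i)) a) 0

theorem gf_trc (M : ℕ) : gf θ (trc M) = Matrix.trace (sem θ M) := by
  have h : ∀ l : List ℕ, gf θ (l.foldr (fun i a => Nat.xor (c3 M (Nat.mul 79 i)) a) 0) =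
      (l.map fun i => co θ M (79 * i)).sum := by
    intro l
    induction l with
    | nil => exact gf_zero
    | cons i l ih =>
      show gf θ (c3 M (79 * i) ^^^ (l.foldr (fun i a => Nat.xor (c3 M (Nat.mul 79 i)) a) 0)) = _
      rw [gf_xor, ih, gf_c3, List.map_cons, List.sum_cons]
  unfold trc
  rw [h, Matrix.trace]
  simp only [Matrix.diag_apply, sem_apply]
  rw [← Finset.sum_range (fun i => co θ M (78 * i + i))]
  rw [Finset.sum_eq_multiset_sum, Finset.range_val, Multiset.range, Multiset.map_coe, Multiset.sum_coe]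
  have e : (fun i => co θ M (79 * i)) = fun i => co θ M (78 * i + i) := by
    funext i
    rw [show 79 * i = 78 * i + i by ring]
  rw [e]

theorem trace_wg (hθ : θ ^ 3 = θ + 1) {w : List Tok} (hw : ok w = true) {n : ℕ} (h : trc (ev w idM) = n) :
    Matrix.trace (AG K (wg hφ θ w)) = gf θ n := by
  rw [← sem_ev_id hφ hθ hw, ← gf_trc, h]

theorem trace_conj {g h : GG K} (H : IsConj g h) : Matrix.trace (AG K g) = Matrix.trace (AG K h) := by
  obtain ⟨c, hc⟩ := isConj_iff.1 H
  rw [← hc, map_mul, map_mul, Matrix.trace_mul_comm, ← Matrix.mul_assoc, ← map_mul, inv_mul_cancel, map_one, Matrix.one_mul]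

end

end Cfsg.Agent.H857.Ree8.Word
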